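import Cfsg.Agent.H253.TwoComm.Cent
import Cfsg.Agent.TypeM.FactsLy
import Cfsg.Agent.TypeM.FactsMcL
import Cfsg.Agent.S2050
import Cfsg.Agent.S2047

/-!
# The McLaughlin and Lyons groups (S2494, helper253)
-/

set_option autoImplicit false

namespace Cfsg.Agent.H253.TC

open Cfsg Subgroup Equiv
open Cfsg.Agent.TypeM Cfsg.Agent.TypeM.Two Cfsg.Agent.SporRec.TwoAn

universe u

/-- `C(t) = 2.A_n`, `p ≤ n < 2 p`: an element with centralizer of order at most `2 (n - p)! p` -/
theorem exists_cent_mt {n : ℕ} {G : Type*} [Group G] [Finite G] (L : MT n G) {p : ℕ} (hp : p.Prime) (hp2 : p ≠ 2)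
    (hn : p ≤ n) (hn2 : n < 2 * p) : ∃ m : G, Nat.card (centralizer ({m} : Set G)) ≤ 2 * ((n - p).factorial * p) := by
  obtain ⟨σ, hσ, ho⟩ := exists_even_prime hp hp2 hn
  have hodd := hp.odd_of_ne_two hp2
  obtain ⟨y, hy, hyp⟩ := L.K.exists_odd_lift hσ hodd (by rw [← ho, pow_orderOf_eq_one])
  refine ⟨L.t * y, (card_cent_mul_le L.t_mul_t (mem_centralizer_singleton_iff.1 y.2) hodd
    (congrArg Subtype.val hyp)).trans ?_⟩
  refine card_cent_ext_le' L.K.π _ ?_ ?_
  · have h1 : (L.K.π.ker : Set (centralizer ({L.t} : Set G))) ⊆ {1, L.K.z} := fun x hx => (L.K.ker x).1 hx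
    calc Nat.card L.K.π.ker = (L.K.π.ker : Set (centralizer ({L.t} : Set G))).ncard := rfl
      _ ≤ ({1, L.K.z} : Set (centralizer ({L.t} : Set G))).ncard := Set.ncard_le_ncard h1 (Set.toFinite _)
      _ ≤ ({L.K.z} : Set (centralizer ({L.t} : Set G))).ncard + 1 := Set.ncard_insert_le _ _
      _ = 2 := by rw [Set.ncard_singleton]
  · have h1 : L.K.π (⟨(y : G), mem_centralizer_singleton_iff.2 (mem_centralizer_singleton_iff.1 y.2)⟩ :
      centralizer ({L.t} : Set G)) = σ := hy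
    rw [h1, card_cent_perm hp hn2 ho]

theorem row_ly {K : Type u} [Group K] [IsSimpleGroup K] (h : Spor.IsoLy K) : Row K := by
  obtain ⟨e⟩ := h
  obtain ⟨hfin, hs, hn, ⟨L⟩⟩ := FactsLy.facts (M := Spor.Ly) ⟨MulEquiv.refl _⟩
  refine Row.congr ?_ e.symm
  obtain ⟨m, hm⟩ := exists_cent_mt L (p := 11) (by norm_num) (by norm_num) (by norm_num) (by norm_num)
  exact Row.of_card (p := 67) hn (by norm_num) (by norm_num) S2050.result (by norm_num) (by norm_num)
    (by norm_num) (by norm_num) (by norm_num) (by norm_num) (by norm_num) m hm (by norm_num [Nat.factorial])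

/-- the translations of `2^3` -/
def tr8 (i : Fin 8) : Perm (Fin 8) where
  toFun x := ⟨i.val ^^^ x.val, Nat.xor_lt_two_pow (n := 3) i.2 x.2⟩
  invFun x := ⟨i.val ^^^ x.val, Nat.xor_lt_two_pow (n := 3) i.2 x.2⟩
  left_inv x := Fin.ext (by simp)
  right_inv x := Fin.ext (by simp)

theorem tr8_mul : ∀ i j : Fin 8, ∃ k : Fin 8, tr8 i * tr8 j = tr8 k := by decide +kernel

theorem tr8_sq : ∀ i : Fin 8, tr8 i * tr8 i = 1 := by decide +kernel

theorem tr8_sign : ∀ i : Fin 8, Perm.sign (tr8 i) = 1 := by decide +kernel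

theorem tr8_supp : ∀ i : Fin 8, 8 ∣ (tr8 i).support.card := by decide +kernel

theorem tr8_inj : ∀ i j : Fin 8, tr8 i = tr8 j → i = j := by decide +kernel

theorem tr8_zero : tr8 0 = 1 := by decide +kernel

/-- an elementary abelian subgroup of order at least 8 -/
theorem exists_sub_mt {G : Type*} [Group G] [Finite G] (L : MT 8 G) : ∃ B : Subgroup G, IsPGroup 2 B ∧
    (∀ a ∈ B, a * a = 1) ∧ 8 ≤ Nat.card B := by
  let V : Subgroup (Perm (Fin 8)) :=
    { carrier := Set.range tr8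
      mul_mem' := by
        rintro _ _ ⟨i, rfl⟩ ⟨j, rfl⟩
        obtain ⟨k, hk⟩ := tr8_mul i j
        exact ⟨k, hk.symm⟩
      one_mem' := ⟨0, tr8_zero⟩
      inv_mem' := by
        rintro _ ⟨i, rfl⟩
        exact ⟨i, (inv_eq_of_mul_eq_one_left (tr8_sq i)).symm⟩ }
  let B0 : Subgroup (centralizer ({L.t} : Set G)) := V.comap L.K.π
  have hsq : ∀ g ∈ B0, g * g = 1 := by
    rintro g ⟨i, hi⟩
    rw [L.K.sq_eq_one_iff, ← hi]
    exact ⟨tr8_sq i, tr8_supp i⟩
  let B : Subgroup G := B0.map (centralizer ({L.t} : Set G)).subtype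
  have hsqB : ∀ a ∈ B, a * a = 1 := by
    rintro _ ⟨g, hg, rfl⟩
    have := hsq g hg
    exact congrArg Subtype.val this
  refine ⟨B, fun a => ⟨1, Subtype.ext ?_⟩, hsqB, ?_⟩
  · have := hsqB a a.2
    simpa [pow_two] using this
  · have h1 : Nat.card B = Nat.card B0 :=
      Nat.card_congr (Subgroup.equivMapOfInjective B0 _ (Subgroup.subtype_injective _)).toEquiv.symm
    rw [h1]
    choose g hg using fun i : Fin 8 => L.K.exists_lift (Perm.mem_alternatingGroup.2 (tr8_sign i))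
    have h2 : Function.Injective (fun i : Fin 8 => (⟨g i, ⟨i, (hg i).symm⟩⟩ : B0)) := by
      intro i j hij
      have h3 : g i = g j := congrArg Subtype.val hij
      exact tr8_inj i j (by rw [← hg i, ← hg j, h3])
    have h3 := Nat.card_le_card_of_injective _ h2
    simpa using h3

theorem row_mcl {K : Type u} [Group K] [IsSimpleGroup K] (h : Spor.IsoMcL K) : Row K := by
  obtain ⟨e⟩ := h
  obtain ⟨hfin, hs, hn, ⟨L⟩⟩ := FactsMcL.facts (M := Spor.McL) ⟨MulEquiv.refl _⟩
  refine Row.congr ?_ e.symm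
  obtain ⟨m, hm⟩ := exists_cent_mt L (p := 7) (by norm_num) (by norm_num) (by norm_num) (by norm_num)
  obtain ⟨B, hB, hB2, hB8⟩ := exists_sub_mt L
  have hD : PD Spor.McL 7 := by
    refine PD.of_fused (p := 2) Nat.prime_two (not_dvd_ker S2047.result (p := 2) (by
      rw [Nat.card_congr Multiplicative.toAdd, Nat.card_zmod]; norm_num)) B hB ?_ (by omega)
    intro a ha ha1 b hb hb1
    obtain ⟨g, hg⟩ := L.one a (hB2 a ha) ha1
    obtain ⟨g', hg'⟩ := L.one b (hB2 b hb) hb1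
    exact (isConj_iff.2 ⟨g, hg⟩).symm.trans (isConj_iff.2 ⟨g', hg'⟩)
  exact Row.of_pd hn (by norm_num) (by norm_num) S2047.result hD (by norm_num) m hm (by norm_num [Nat.factorial])

end Cfsg.Agent.H253.TC
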